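import Cfsg.Agent.H470.PiRad.Ell
import Cfsg.Agent.H655.Basic
import Cfsg.Agent.H30.ConstVal
import Cfsg.Agent.H848.Out.Coset

/-!
# Outer automorphisms as products (helper848, S3938)

* `outer_prod` : `K` simple of Lie type in characteristic `t`, `a` an outer type preserving automorphism of prime order
  `≠ t`, `x ∈ K` with `t ∤ |C_K(x)|`, `y ∈ K a` with no fixed element of order `t`: `a` is the product of an inner
  automorphism by a conjugate of `x` and a conjugate of `y`.
-/

set_option autoImplicit false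
set_option linter.unusedSectionVars false

namespace Cfsg.Agent.H848.Out

open Cfsg Subgroup Cfsg.Agent.H470.PiRad
open Cfsg.Agent.Characters.Core
open Cfsg.Agent.BpLieP.Big (conj_mul_eq conj_injective)
open scoped commutatorElement

universe u

/-- **Gow's theorem for an outer automorphism.** -/
theorem outer_prod {K : Type u} [Group K] [Finite K] {t : ℕ} (ht : t.Prime) (hL : IsLieTypeChar t K) {a : MulAut K}
    (ha : (orderOf a).Prime) (hat : orderOf a ≠ t)
    (hTP : ∃ (P : BNPair K) (U : Subgroup K), FixBN.Split P t U ∧ CosetSys.TP P a)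
    (hout : a ∉ (MulAut.conj (G := K)).range) {x : K} (hx : ¬ t ∣ Nat.card ↥(centralizer ({x} : Set K)))
    {y : MulAut K} (hy : ∃ k : K, y = MulAut.conj k * a) (hyf : ∀ s : K, y s = s → orderOf s ≠ t) :
    ∃ g h : MulAut K, a = MulAut.conj (g x) * (h * y * h⁻¹) := by
  classical
  have : Fact t.Prime := ⟨ht⟩
  have : IsSimpleGroup K := H400.LieSimple.isSimple_of_lie hL
  have hZ : center K = ⊥ := H955.PiG.center_bot ht hL
  have hcinj := conj_injective hZ
  have hxt' : ¬ t ∣ orderOf a := fun hd => hat ((Nat.prime_dvd_prime_iff_eq ht ha).1 hd).symm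
  -- the group `L = Inn(K) ⟨a⟩`
  obtain ⟨I, hI⟩ : ∃ I : Subgroup (MulAut K), I = (MulAut.conj (G := K)).range := ⟨_, rfl⟩
  have hIn : I.Normal := by
    rw [hI]
    refine ⟨fun y hy g => ?_⟩
    obtain ⟨s, rfl⟩ := hy
    exact ⟨g s, (conj_mul_eq g s).symm⟩
  obtain ⟨L, hL'⟩ : ∃ L : Subgroup (MulAut K), L = I ⊔ zpowers a := ⟨_, rfl⟩
  have hIL : I ≤ L := hL' ▸ le_sup_left
  have haL : a ∈ L := hL' ▸ (le_sup_right (a := I)) (mem_zpowers a)
  let N : Subgroup L := I.subgroupOf L
  have hNn : N.Normal := hIn.subgroupOf L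
  let τ : L := ⟨a, haL⟩
  have hτ : orderOf τ = orderOf a := Subgroup.orderOf_mk a haL
  let eN : K ≃* N := ((MonoidHom.ofInjective hcinj).trans (MulEquiv.subgroupCongr hI.symm)).trans
    (subgroupOfEquivOfLe hIL).symm
  have heN : ∀ s : K, (((eN s : N) : L) : MulAut K) = MulAut.conj s := fun s => rfl
  have hgen : N ⊔ zpowers τ = ⊤ := by
    rw [eq_top_iff]
    rintro ⟨y, hy⟩ -
    have hy' := hy
    rw [hL'] at hy'
    have hy2 : y ∈ ((I ⊔ zpowers a : Subgroup (MulAut K)) : Set (MulAut K)) := hy'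
    rw [normal_mul] at hy2
    obtain ⟨n, hn, w, hw, hnw⟩ := hy2
    obtain ⟨i, rfl⟩ := mem_zpowers_iff.1 hw
    have h1 : (⟨y, hy⟩ : L) = ⟨n, hIL hn⟩ * τ ^ i := by
      apply Subtype.ext
      exact hnw.symm
    rw [h1]
    exact mul_mem (mem_sup_left (by exact hn)) (mem_sup_right (zpow_mem (mem_zpowers τ) i))
  -- a `t`-element of `L` is inner
  have hinn : ∀ c : L, (∃ k : ℕ, c ^ t ^ k = 1) → c ∈ N := by
    rintro c ⟨k, hk⟩
    obtain ⟨n, hn, i, hni⟩ := H836.CosetGow.exists_zpow N hgen c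
    rw [← QuotientGroup.eq_one_iff, ← orderOf_eq_one_iff, ← Nat.dvd_one]
    have hcop : Nat.gcd (t ^ k) (orderOf τ) = 1 := by
      rw [hτ]
      exact Nat.Coprime.pow_left k ((Nat.Prime.coprime_iff_not_dvd ht).2 hxt')
    rw [← hcop]
    refine Nat.dvd_gcd ?_ ?_
    · refine orderOf_dvd_of_pow_eq_one ?_
      rw [← QuotientGroup.mk_pow, hk, QuotientGroup.mk_one]
    · refine orderOf_dvd_of_pow_eq_one ?_
      rw [← hni, QuotientGroup.mk_mul, (QuotientGroup.eq_one_iff n).2 hn, one_mul, QuotientGroup.mk_zpow,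
        ← zpow_natCast, ← zpow_mul, mul_comm, zpow_mul, zpow_natCast, ← QuotientGroup.mk_pow, pow_orderOf_eq_one,
        QuotientGroup.mk_one, one_zpow]
  have hinn' : ∀ c : L, (∃ k : ℕ, c ^ t ^ k = 1) → ∃ k : K, (c : MulAut K) = MulAut.conj k := by
    intro c hc
    have h1 : (c : MulAut K) ∈ I := hinn c hc
    rw [hI] at h1
    obtain ⟨k, hk⟩ := h1
    exact ⟨k, hk.symm⟩
  -- centralizers
  have hCent : ∀ w : L, (∀ s : K, orderOf s = t → (w : MulAut K) s ≠ s) →
      ¬ t ∣ Nat.card ↥(centralizer ({w} : Set L)) := by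
    intro w hw hd
    obtain ⟨c, hc⟩ := exists_prime_orderOf_dvd_card' t hd
    have hct := mem_centralizer_singleton_iff.1 c.2
    obtain ⟨s, hs⟩ := hinn' (c : L) ⟨1, by
      rw [pow_one, ← SubmonoidClass.coe_pow, ← hc, pow_orderOf_eq_one, OneMemClass.coe_one]⟩
    have hos : orderOf s = t := by
      rw [← orderOf_injective _ hcinj s, ← hs, orderOf_coe, orderOf_coe, hc]
    apply hw s hos
    apply hcinj
    rw [← conj_mul_eq, ← hs]
    have h1 := congrArg (Subtype.val : L → MulAut K) hct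
    have h2 : ((c : L) : MulAut K) * w = w * ((c : L) : MulAut K) := h1
    rw [← h2]
    group
  have hNlie : IsLieTypeChar t N := Cfsg.Agent.OddHalf.Known.isLieTypeChar_congr eN hL
  have hNs : IsSimpleGroup N := H400.LieSimple.isSimple_of_lie hNlie
  have hS := H716.SplitAb.hasSplitAb_of_lie ht hNlie
  -- type preserving
  obtain ⟨P, U, S, hTP⟩ := hTP
  have hLTP : ∀ b ∈ L, CosetSys.TP P b := by
    intro b hb
    rw [hL'] at hb
    have ha2 : b ∈ ((I ⊔ zpowers a : Subgroup (MulAut K)) : Set (MulAut K)) := hb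
    rw [normal_mul] at ha2
    obtain ⟨n, hn, w, hw, rfl⟩ := ha2
    rw [SetLike.mem_coe, hI] at hn
    obtain ⟨k, rfl⟩ := hn
    obtain ⟨i, rfl⟩ := mem_zpowers_iff.1 hw
    refine (CosetSys.TP.conj k).mul ?_
    have hnat : ∀ j : ℕ, CosetSys.TP P (a ^ j) := by
      intro j
      induction j with
      | zero =>
        rw [pow_zero, ← map_one (MulAut.conj (G := K))]
        exact CosetSys.TP.conj 1
      | succ j ih =>
        rw [pow_succ]
        exact ih.mul hTP
    rcases i with j | j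
    · simpa using hnat j
    · rw [zpow_negSucc]
      exact (hnat (j + 1)).inv
  have hIr : (MulAut.conj (G := K)).range ≤ L := hI ▸ hIL
  obtain ⟨χ, hχ, hχ1, hχv⟩ := CosetSys.exists_st L hLTP S hIr (fun a ha ⟨k, hk⟩ => by
    obtain ⟨w, hw⟩ := hinn' ⟨a, ha⟩ ⟨k, Subtype.ext hk⟩
    exact ⟨w, hw.symm⟩)
  have hidx : ¬ t ∣ N.index := by
    intro hd
    have h1 : t ∣ Nat.card (L ⧸ N) := hd
    obtain ⟨c, hc⟩ := exists_prime_orderOf_dvd_card' t h1
    obtain ⟨y, rfl⟩ := QuotientGroup.mk_surjective c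
    obtain ⟨n, hn, i, hni⟩ := H836.CosetGow.exists_zpow N hgen y
    have h2 : orderOf (QuotientGroup.mk y : L ⧸ N) ∣ orderOf a := by
      refine orderOf_dvd_of_pow_eq_one ?_
      rw [← hni, QuotientGroup.mk_mul, (QuotientGroup.eq_one_iff n).2 hn, one_mul, QuotientGroup.mk_zpow,
        ← zpow_natCast, ← zpow_mul, mul_comm, zpow_mul, zpow_natCast, ← QuotientGroup.mk_pow, ← hτ,
        pow_orderOf_eq_one, QuotientGroup.mk_one, one_zpow]
    rw [hc] at h2
    exact hxt' h2
  have hfac : (Nat.card L).factorization t = (Nat.card N).factorization t := by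
    have h1 := N.card_mul_index
    have hi0 : N.index ≠ 0 := Subgroup.index_ne_zero_of_finite
    rw [← h1, Nat.factorization_mul Nat.card_pos.ne' hi0, Finsupp.add_apply,
      Nat.factorization_eq_zero_of_not_dvd hidx, add_zero]
  have hval : ∀ w : L, ¬ t ∣ Nat.card ↥(centralizer ({w} : Set L)) → χ w = 1 ∨ χ w = -1 := by
    intro w hw
    have h0 : (Nat.card ↥(centralizer ({w} : Set L))).factorization t = 0 :=
      Nat.factorization_eq_zero_of_not_dvd hw
    have hreg : ¬ t ∣ orderOf w := by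
      intro hd
      apply hw
      refine hd.trans ?_
      have h1 : w ∈ centralizer ({w} : Set L) := mem_centralizer_singleton_iff.2 rfl
      have h2 := orderOf_dvd_natCard (⟨w, h1⟩ : centralizer ({w} : Set L))
      rwa [Subgroup.orderOf_mk] at h2
    have h1 := hχv w hreg
    rw [h0, pow_zero, Nat.cast_one] at h1
    exact h1
  -- the elements
  obtain ⟨k, hk⟩ := hy
  have hyL : y ∈ L := by
    rw [hk]
    exact mul_mem (hIr ⟨k, rfl⟩) haL
  let yL : L := ⟨y, hyL⟩
  have hyk : yL = (eN k : L) * τ := Subtype.ext hk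
  have hgeny : N ⊔ zpowers yL = ⊤ := by
    rw [eq_top_iff, ← hgen]
    refine sup_le le_sup_left ?_
    rw [zpowers_le]
    have h1 : τ = ((eN k : N) : L)⁻¹ * yL := by rw [hyk]; group
    rw [h1]
    exact mul_mem (mem_sup_left (inv_mem (eN k).2)) (mem_sup_right (mem_zpowers yL))
  have hyτ : yL * τ⁻¹ ∈ N := by
    rw [hyk, mul_inv_cancel_right]
    exact (eN k).2
  have hvX : χ ((eN x : N) : L) = 1 ∨ χ ((eN x : N) : L) = -1 := by
    refine hval _ (hCent _ fun s hs hfix => hx ?_)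
    rw [heN, MulAut.conj_apply, mul_inv_eq_iff_eq_mul] at hfix
    have h1 : s ∈ centralizer ({x} : Set K) := mem_centralizer_singleton_iff.2 hfix.symm
    have h2 := orderOf_dvd_natCard (⟨s, h1⟩ : centralizer ({x} : Set K))
    rwa [Subgroup.orderOf_mk, hs] at h2
  have hvy : χ yL = 1 ∨ χ yL = -1 := hval _ (hCent _ fun s hs hfix => hyf s hfix hs)
  have hdN : t ∣ Nat.card N := H330.Gow.dvd_card (H330.Gow.hasSplit_of_ab hS)
  have hregτ : ¬ t ∣ orderOf τ⁻¹ := by rwa [orderOf_inv, hτ]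
  have hcard := (centralizer ({τ⁻¹} : Set L)).card_mul_index
  have hi0 : (centralizer ({τ⁻¹} : Set L)).index ≠ 0 := Subgroup.index_ne_zero_of_finite
  have hfacC : (Nat.card L).factorization t = (Nat.card ↥(centralizer ({τ⁻¹} : Set L))).factorization t +
      (centralizer ({τ⁻¹} : Set L)).index.factorization t := by
    rw [← hcard, Nat.factorization_mul Nat.card_pos.ne' hi0]
    rfl
  have hω : ∃ m : ℕ, ¬ t ∣ m ∧ (centralChar χ τ⁻¹ = (m : ℂ) ∨ centralChar χ τ⁻¹ = -(m : ℂ)) := by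
    refine ⟨ordCompl[t] (centralizer ({τ⁻¹} : Set L)).index, Nat.not_dvd_ordCompl ht hi0, ?_⟩
    have h2 : ((centralizer ({τ⁻¹} : Set L)).index : ℂ) =
        (t : ℂ) ^ (centralizer ({τ⁻¹} : Set L)).index.factorization t *
          ((ordCompl[t] (centralizer ({τ⁻¹} : Set L)).index : ℕ) : ℂ) := by
      rw [← Nat.cast_pow, ← Nat.cast_mul, Nat.ordProj_mul_ordCompl_eq_self]
    have hp0 : (t : ℂ) ≠ 0 := by exact_mod_cast ht.ne_zero
    unfold centralChar
    rcases hχv τ⁻¹ hregτ with h3 | h3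
    · left
      rw [h3, hχ1, hfacC, h2, pow_add, Nat.cast_mul, Nat.cast_pow, Nat.cast_pow]
      field_simp
    · right
      rw [h3, hχ1, hfacC, h2, pow_add, Nat.cast_mul, Nat.cast_pow, Nat.cast_pow]
      field_simp
  have hd : t ∣ (centralizer ({τ⁻¹} : Set L)).index := by
    by_contra hnd
    have h0 := Nat.factorization_eq_zero_of_not_dvd hnd
    rw [h0, add_zero] at hfacC
    have h1 : ‖χ τ⁻¹‖ = ‖χ 1‖ := by
      rcases hχv τ⁻¹ hregτ with h3 | h3
      · rw [h3, hχ1, hfacC]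
      · rw [h3, hχ1, hfacC, norm_neg]
    have hy0 : χ yL ≠ 0 := by rcases hvy with h | h <;> rw [h] <;> norm_num
    have hirr : IsIrrCharacter N (fun n : N => χ n) := H836.CosetGow.restrict_irr N hgeny hχ hy0
    have h2 : ∀ n ∈ N, ⁅τ⁻¹, n⁆ = 1 := by
      intro n hn
      by_contra hne
      have hmem : ⁅τ⁻¹, n⁆ ∈ N := by
        rw [commutatorElement_def]
        exact mul_mem (hNn.conj_mem n hn τ⁻¹) (inv_mem hn)
      have h3 : (⟨_, hmem⟩ : N) ≠ 1 := fun h => hne (congrArg Subtype.val h)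
      have h4 := H30.ConstVal.eq_one_of_apply_eq hirr h3
        (H655.Basic.apply_commutator_of_norm (isIrr_isCharacter hχ) h1 n)
      have h5 : χ 1 = 1 := congrFun h4 1
      rw [hχ1, hfac] at h5
      have h6 : t ^ (Nat.card N).factorization t = 1 := by exact_mod_cast h5
      have h7 : 0 < (Nat.card N).factorization t := ht.factorization_pos_of_dvd Nat.card_pos.ne' hdN
      exact (Nat.one_lt_pow h7.ne' ht.one_lt).ne' h6
    apply hout
    have h3 : a⁻¹ = 1 := by
      ext s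
      have h4 := h2 _ (eN s).2
      rw [commutatorElement_eq_one_iff_mul_comm] at h4
      have h5 : a⁻¹ * MulAut.conj s = MulAut.conj s * a⁻¹ := congrArg (Subtype.val : L → MulAut K) h4
      have h6 := conj_mul_eq a⁻¹ s
      rw [h5, mul_inv_cancel_right] at h6
      exact (hcinj h6).symm
    rw [inv_eq_one] at h3
    rw [h3]
    exact one_mem _
  obtain ⟨g, h, hgh⟩ := coset_prod N hS (H330.Gow.locChar_of_lie hNlie)
    (H400.LieLocal.center_eq_bot (H330.Gow.hasSplit_of_ab hS))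
    (H330.Gow.perfect_of_split (H330.Gow.hasSplit_of_ab hS)) hgeny hyτ (eN x).2 ha.ne_zero
    (by rw [← hτ, pow_orderOf_eq_one]) hidx hχ (by rw [hχ1, hfac]) hvX hvy hω hd
  refine ⟨(g : MulAut K), (h : MulAut K), ?_⟩
  have h1 : (g : MulAut K) * MulAut.conj x * (g : MulAut K)⁻¹ * ((h : MulAut K) * y * (h : MulAut K)⁻¹) = a :=
    congrArg (Subtype.val : L → MulAut K) hgh
  rw [← conj_mul_eq]
  exact h1.symm

end Cfsg.Agent.H848.Out
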